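import Cfsg.Agent.H237.IF.Cnt

/-!
# S5719, orthogonal groups, `q` even: the class bound (helper237, EV1 of helper829)

`class_bound` : an involution of `E Q` of rank `k` has at most `4 q^(k(m-k))` conjugates.
-/

set_option autoImplicit false

namespace Cfsg.Agent.H237.IFE

open QuadraticMap Module Subgroup Cfsg.Agent.LieClassical.OrthCore Cfsg.Agent.H989.Gs.Gen
open Cfsg.Agent.H237.IF (index_le_of_inj)

variable {F V : Type*} [Field F] [AddCommGroup V] [Module F V]

/-! ### Numbers -/

theorem four_prod (q : ℕ) (hq : 2 ≤ q) (k : ℕ) (hk : 1 ≤ k) :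
    q ^ (k * k) * (q ^ k + 2) ≤ 4 * (q ^ k * ∏ i : Fin k, (q ^ k - q ^ (i : ℕ))) := by
  induction k with
  | zero => omega
  | succ k ih =>
    have e1 : ∏ i : Fin (k + 1), (q ^ (k + 1) - q ^ (i : ℕ)) =
        (q ^ (k + 1) - 1) * (q ^ k * ∏ i : Fin k, (q ^ k - q ^ (i : ℕ))) := by
      rw [Fin.prod_univ_succ]
      congr 1
      have e2 : ∀ i : Fin k, q ^ (k + 1) - q ^ ((i.succ : Fin (k + 1)) : ℕ) = q * (q ^ k - q ^ (i : ℕ)) := by
        intro i
        rw [Fin.val_succ, pow_succ', pow_succ', Nat.mul_sub]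
      rw [Finset.prod_congr rfl fun i _ => e2 i, Finset.prod_mul_distrib, Finset.prod_const, Finset.card_univ,
        Fintype.card_fin]
    rcases Nat.eq_zero_or_pos k with h0 | h0
    · subst h0
      rw [e1]
      obtain ⟨A, rfl⟩ : ∃ A, q = A + 2 := ⟨q - 2, by omega⟩
      simp
      nlinarith [Nat.zero_le A]
    have ih := ih h0
    rw [e1]
    set P := q ^ k * ∏ i : Fin k, (q ^ k - q ^ (i : ℕ)) with hP
    obtain ⟨A, hA⟩ : ∃ A, q ^ (k + 1) = A + 1 := ⟨q ^ (k + 1) - 1, by
      have : 0 < q ^ (k + 1) := Nat.pow_pos (by omega)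
      omega⟩
    have hA' : q ^ (k + 1) - 1 = A := by omega
    have e3 : q ^ ((k + 1) * (k + 1)) = q ^ (k * k) * q ^ k * q ^ (k + 1) := by
      rw [← pow_add, ← pow_add]; congr 1; ring
    have h1 : 2 ≤ q ^ k := by
      calc 2 ≤ q := hq
        _ = q ^ 1 := (pow_one q).symm
        _ ≤ q ^ k := Nat.pow_le_pow_right (by omega) h0
    have h2 : q ^ k * (q ^ (k + 1) + 2) ≤ A * (q ^ k + 2) := by
      have h3 : q ^ (k + 1) = q * q ^ k := pow_succ' q k
      have h4 : 2 * q ^ k ≤ q ^ (k + 1) := by rw [h3]; exact Nat.mul_le_mul_right _ hq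
      nlinarith
    rw [hA', e3]
    calc q ^ (k * k) * q ^ k * q ^ (k + 1) * (q ^ (k + 1) + 2)
        = q ^ (k * k) * q ^ (k + 1) * (q ^ k * (q ^ (k + 1) + 2)) := by ring
      _ ≤ q ^ (k * k) * q ^ (k + 1) * (A * (q ^ k + 2)) := Nat.mul_le_mul_left _ h2
      _ = q ^ (k + 1) * A * (q ^ (k * k) * (q ^ k + 2)) := by ring
      _ ≤ q ^ (k + 1) * A * (4 * P) := Nat.mul_le_mul_left _ ih
      _ = 4 * (q ^ (k + 1) * (A * P)) := by ring

theorem four_prod' (q : ℕ) (hq : 2 ≤ q) (k : ℕ) :
    q ^ (k * k) ≤ 4 * ∏ i : Fin k, (q ^ k - q ^ (i : ℕ)) := by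
  rcases Nat.eq_zero_or_pos k with h0 | h0
  · subst h0; simp
  have h1 := four_prod q hq k h0
  have h2 : q ^ k * q ^ (k * k) ≤ q ^ k * (4 * ∏ i : Fin k, (q ^ k - q ^ (i : ℕ))) := by
    calc q ^ k * q ^ (k * k) ≤ q ^ (k * k) * (q ^ k + 2) := by
          rw [mul_comm]
          exact Nat.mul_le_mul_left _ (by omega)
      _ ≤ 4 * (q ^ k * ∏ i : Fin k, (q ^ k - q ^ (i : ℕ))) := h1
      _ = _ := by ring
  exact Nat.le_of_mul_le_mul_left h2 (Nat.pow_pos (by omega))

/-! ### Isotropic tuples -/

/-- independent pairwise orthogonal tuples -/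
abbrev Iso (Q : QuadraticForm F V) (k : ℕ) : Type _ :=
  {u : Fin k → V // LinearIndependent F u ∧ ∀ i j, i ≠ j → polar Q (u i) (u j) = 0}

variable {Q : QuadraticForm F V}

theorem card_perp [Finite F] [Finite V] (hQ : Nondeg Q) {k : ℕ} {u : Fin k → V} (hu : LinearIndependent F u) :
    Nat.card {x : V // ∀ i, polar Q (u i) x = 0} = Nat.card F ^ (finrank F V - k) := by
  classical
  have hfd : FiniteDimensional F V := Module.Finite.of_finite
  let φ : V →ₗ[F] (Fin k → F) := LinearMap.pi fun i => Q.polarBilin (u i)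
  have hφ : ∀ x i, φ x i = polar Q (u i) x := fun x i => rfl
  have hs : LinearMap.range φ = ⊤ := by
    by_contra hne
    obtain ⟨f, hf0, hf⟩ := Submodule.exists_le_ker_of_lt_top _ (lt_top_iff_ne_top.2 hne)
    apply hf0
    have h1 : ∀ c : Fin k → F, f c = ∑ i, c i * f (Pi.single i 1) := by
      intro c
      conv_lhs => rw [← Finset.univ_sum_single c]
      rw [map_sum]
      refine Finset.sum_congr rfl fun i _ => ?_
      have : (Pi.single i (c i) : Fin k → F) = c i • Pi.single i 1 := by
        rw [← Pi.single_smul, smul_eq_mul, mul_one]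
      rw [this, map_smul, smul_eq_mul]
    have h2 : ∑ i, f (Pi.single i 1) • u i = 0 := by
      apply hQ
      intro y
      have h3 : f (φ y) = 0 := LinearMap.mem_ker.1 (hf ⟨y, rfl⟩)
      rw [h1] at h3
      have h4 : polar Q (∑ i, f (Pi.single i 1) • u i) y = ∑ i, f (Pi.single i 1) * polar Q (u i) y := by
        have h5 : polar Q (∑ i, f (Pi.single i 1) • u i) y = Q.polarBilin (∑ i, f (Pi.single i 1) • u i) y := rfl
        rw [h5, map_sum, LinearMap.sum_apply]
        refine Finset.sum_congr rfl fun i _ => ?_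
        rw [map_smul, LinearMap.smul_apply, smul_eq_mul]
        rfl
      rw [h4, ← h3]
      exact Finset.sum_congr rfl fun i _ => by rw [hφ, mul_comm]
    have h3 := Fintype.linearIndependent_iff.1 hu (fun i => f (Pi.single i 1)) h2
    apply LinearMap.ext
    intro c
    rw [h1]
    simp [h3]
  have h1 := LinearMap.finrank_range_add_finrank_ker φ
  rw [hs, finrank_top, Module.finrank_fin_fun] at h1
  have h2 : Nat.card {x : V // ∀ i, polar Q (u i) x = 0} = Nat.card (LinearMap.ker φ) := by
    refine Nat.card_congr (Equiv.subtypeEquivRight fun x => ?_)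
    rw [LinearMap.mem_ker]
    constructor
    · intro h; funext i; exact h i
    · intro h i; rw [← hφ, h]; rfl
  rw [h2, Module.natCard_eq_pow_finrank (K := F)]
  congr 1
  omega

theorem card_Iso [Finite F] [Finite V] (hQ : Nondeg Q) (k : ℕ) :
    Nat.card (Iso Q k) ≤ Nat.card F ^ (∑ j ∈ Finset.range k, (finrank F V - j)) := by
  classical
  induction k with
  | zero =>
    rw [Finset.range_zero, Finset.sum_empty, pow_zero]
    have : Subsingleton (Iso Q 0) := ⟨fun a b => Subtype.ext (funext fun i => i.elim0)⟩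
    exact Finite.card_le_one_iff_subsingleton.2 this
  | succ k ih =>
    have hfi : Finite (Iso Q k) := Subtype.finite
    have hfi2 : Fintype (Iso Q k) := Fintype.ofFinite _
    have h1 : Nat.card (Iso Q (k + 1)) ≤ Nat.card (Σ u : Iso Q k, {x : V // ∀ i, polar Q (u.1 i) x = 0}) := by
      refine Nat.card_le_card_of_injective (fun u => ⟨⟨fun i => u.1 i.castSucc, ?_, ?_⟩, ⟨u.1 (Fin.last k), ?_⟩⟩) ?_
      · exact u.2.1.comp _ (Fin.castSucc_injective k)
      · intro i j hij
        exact u.2.2 _ _ fun h => hij (Fin.castSucc_injective k h)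
      · intro i
        exact u.2.2 _ _ (Fin.castSucc_lt_last i).ne
      · intro u u' h
        rw [Sigma.mk.injEq] at h
        obtain ⟨h1, h2⟩ := h
        have h3 : ∀ i : Fin k, u.1 i.castSucc = u'.1 i.castSucc := fun i => congrFun (congrArg Subtype.val h1) i
        have h4 : u.1 (Fin.last k) = u'.1 (Fin.last k) := by
          have e : (fun i : Fin k => u.1 i.castSucc) = fun i => u'.1 i.castSucc := funext h3
          have key : ∀ (a b : Iso Q k) (x : {x : V // ∀ i, polar Q (a.1 i) x = 0})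
              (y : {x : V // ∀ i, polar Q (b.1 i) x = 0}), a = b → HEq x y → (x : V) = y := by
            rintro a b x y rfl hxy
            rw [eq_of_heq hxy]
          exact key _ _ _ _ h1 h2
        apply Subtype.ext
        funext i
        refine Fin.lastCases ?_ (fun i => ?_) i
        · exact h4
        · exact h3 i
    rw [Nat.card_sigma] at h1
    have h2 : ∑ u : Iso Q k, Nat.card {x : V // ∀ i, polar Q (u.1 i) x = 0} =
        Nat.card (Iso Q k) * Nat.card F ^ (finrank F V - k) := by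
      rw [Finset.sum_congr rfl fun u _ => card_perp hQ u.2.1, Finset.sum_const, Finset.card_univ, smul_eq_mul,
        Nat.card_eq_fintype_card (α := Iso Q k)]
    rw [h2] at h1
    rw [Finset.sum_range_succ, pow_add]
    exact h1.trans (Nat.mul_le_mul_right _ ih)

/-! ### Square zero maps -/

/-- the maps `t - 1`, `t` an involution of rank `k` -/
abbrev TT (Q : QuadraticForm F V) (k : ℕ) : Type _ :=
  {N : V →ₗ[F] V // (∀ v w, polar Q (N v) w = polar Q v (N w)) ∧ (∀ v, N (N v) = 0) ∧
    (∀ v, polar Q v (N v) = Q (N v)) ∧ finrank F (LinearMap.range N) = k}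

/-- a basis of the range and the Gram matrix determine the map -/
theorem eq_of_gram (hQ : Nondeg Q) {N N' : V →ₗ[F] V}
    (h1 : ∀ v w, polar Q (N v) w = polar Q v (N w)) (h1' : ∀ v w, polar Q (N' v) w = polar Q v (N' w))
    (hr : LinearMap.range N = LinearMap.range N') {k : ℕ} {u v v' : Fin k → V}
    (hu : Submodule.span F (Set.range u) = LinearMap.range N) (hv : ∀ i, N (v i) = u i) (hv' : ∀ i, N' (v' i) = u i)
    (hG : ∀ i j, polar Q (v i) (u j) = polar Q (v' i) (u j)) : N = N' := by
  have hmem : ∀ x ∈ LinearMap.range N, (∀ j, polar Q x (v j) = 0) → x = 0 := by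
    rintro _ ⟨y, rfl⟩ h
    apply hQ
    intro w
    rw [h1, polar_comm]
    have h2 : N w ∈ Submodule.span F (Set.range u) := by rw [hu]; exact ⟨w, rfl⟩
    refine Submodule.span_induction (p := fun z _ => polar Q z y = 0) ?_ ?_ ?_ ?_ h2
    · rintro _ ⟨j, rfl⟩
      rw [← hv j, polar_comm, ← h1]
      exact h j
    · exact polar_zero_left Q y
    · intro a b _ _ ha hb
      rw [polar_add_left, ha, hb, add_zero]
    · intro c a _ ha
      rw [polar_smul_left, ha, smul_zero]
  have hcomm : ∀ z ∈ LinearMap.range N, ∀ j, polar Q z (v j) = polar Q z (v' j) := by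
    intro z hz j
    rw [← hu] at hz
    refine Submodule.span_induction (p := fun z _ => polar Q z (v j) = polar Q z (v' j)) ?_ ?_ ?_ ?_ hz
    · rintro _ ⟨i, rfl⟩
      rw [polar_comm Q (u i), polar_comm Q (u i)]
      exact hG j i
    · rw [polar_zero_left, polar_zero_left]
    · intro a b _ _ ha hb
      rw [polar_add_left, polar_add_left, ha, hb]
    · intro c a _ ha
      rw [polar_smul_left, polar_smul_left, ha]
  apply LinearMap.ext
  intro x
  rw [← sub_eq_zero]
  apply hmem
  · exact Submodule.sub_mem _ ⟨x, rfl⟩ (by rw [hr]; exact ⟨x, rfl⟩)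
  · intro j
    rw [polar_sub_left, hcomm (N' x) (by rw [hr]; exact ⟨x, rfl⟩) j, h1, h1', hv, hv', sub_self]

theorem card_TT [Finite F] [Finite V] (hQ : Nondeg Q) (k : ℕ) (hk : k ≤ finrank F V) :
    Nat.card (TT Q k) * ∏ i : Fin k, (Nat.card F ^ k - Nat.card F ^ (i : ℕ)) ≤ Nat.card F ^ (k * finrank F V) := by
  classical
  have hfd : FiniteDimensional F V := Module.Finite.of_finite
  have hF : Fintype F := Fintype.ofFinite F
  have hfV : Finite (V →ₗ[F] V) := Finite.of_injective (fun f : V →ₗ[F] V => (f : V → V)) DFunLike.coe_injective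
  have hft : Finite (TT Q k) := Subtype.finite
  have hft2 : Fintype (TT Q k) := Fintype.ofFinite _
  have hfi : Finite (Iso Q k) := Subtype.finite
  set q := Nat.card F with hq
  have hfr : ∀ N : TT Q k, Nat.card {s : Fin k → LinearMap.range N.1 // LinearIndependent F s} =
      ∏ i : Fin k, (q ^ k - q ^ (i : ℕ)) := by
    intro N
    have h1 := card_linearIndependent (K := F) (V := LinearMap.range N.1) (k := k) (le_of_eq N.2.2.2.2.symm)
    rw [h1, N.2.2.2.2, hq, Nat.card_eq_fintype_card]
  have e1 : Nat.card (Σ N : TT Q k, {s : Fin k → LinearMap.range N.1 // LinearIndependent F s}) =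
      Nat.card (TT Q k) * ∏ i : Fin k, (q ^ k - q ^ (i : ℕ)) := by
    rw [Nat.card_sigma, Finset.sum_congr rfl fun N _ => hfr N, Finset.sum_const, Finset.card_univ, smul_eq_mul,
      Nat.card_eq_fintype_card]
  rw [← e1]
  -- preimages
  have hpre : ∀ a : (Σ N : TT Q k, {s : Fin k → LinearMap.range N.1 // LinearIndependent F s}),
      ∃ v : Fin k → V, ∀ i, a.1.1 (v i) = (a.2.1 i : V) := by
    intro a
    choose v hv using fun i => (a.2.1 i).2
    exact ⟨v, hv⟩
  choose pv hpv using hpre
  have e2 : Nat.card (Iso Q k × ((Σ j : Fin k, Fin j) → F)) ≤ q ^ (k * finrank F V) := by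
    rw [Nat.card_prod, Nat.card_fun, Nat.card_eq_fintype_card (α := (Σ j : Fin k, Fin j)), Fintype.card_sigma]
    simp only [Fintype.card_fin]
    rw [Fin.sum_univ_eq_sum_range (fun j => j) k, ← hq]
    refine (Nat.mul_le_mul_right _ (card_Iso hQ k)).trans ?_
    rw [← pow_add, ← Finset.sum_add_distrib]
    refine le_of_eq ?_
    congr 1
    rw [Finset.sum_congr rfl (g := fun _ => finrank F V) fun j hj => by
      rw [Finset.mem_range] at hj; omega, Finset.sum_const, Finset.card_range, smul_eq_mul]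
  refine le_trans ?_ e2
  have hfp : Finite (Iso Q k × ((Σ j : Fin k, Fin j) → F)) := inferInstance
  have hperp : ∀ (a : (Σ N : TT Q k, {s : Fin k → LinearMap.range N.1 // LinearIndependent F s})) i j,
      polar Q (a.2.1 i : V) (a.2.1 j : V) = 0 := by
    intro a i j
    rw [← hpv a i, ← hpv a j, a.1.2.1, a.1.2.2.1, polar_zero_right]
  refine Nat.card_le_card_of_injective (fun a => (⟨fun i => (a.2.1 i : V), ?_, fun i j _ => hperp a i j⟩,
    fun p => polar Q (pv a p.1) (a.2.1 ⟨p.2, p.2.2.trans p.1.2⟩ : V))) ?_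
  · exact a.2.2.map' _ (Submodule.ker_subtype _)
  · intro a b hab
    rw [Prod.mk.injEq] at hab
    obtain ⟨h1, h2⟩ := hab
    have hu : ∀ i, (a.2.1 i : V) = (b.2.1 i : V) := fun i => congrFun (congrArg Subtype.val h1) i
    have hspan : ∀ (a : (Σ N : TT Q k, {s : Fin k → LinearMap.range N.1 // LinearIndependent F s})),
        Submodule.span F (Set.range fun i => (a.2.1 i : V)) = LinearMap.range a.1.1 := by
      intro a
      have h2 : Submodule.span F (Set.range a.2.1) = ⊤ :=
        a.2.2.span_eq_top_of_card_eq_finrank' (by rw [Fintype.card_fin, a.1.2.2.2.2])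
      have h3 : Set.range (fun i => (a.2.1 i : V)) = (LinearMap.range a.1.1).subtype '' Set.range a.2.1 := by
        rw [← Set.range_comp]; rfl
      rw [h3, Submodule.span_image, h2, Submodule.map_top, Submodule.range_subtype]
    have hr : LinearMap.range a.1.1 = LinearMap.range b.1.1 := by
      rw [← hspan a, ← hspan b]
      congr 2
      exact funext hu
    have hsym : ∀ (a : (Σ N : TT Q k, {s : Fin k → LinearMap.range N.1 // LinearIndependent F s})) i j,
        polar Q (pv a i) (a.2.1 j : V) = polar Q (pv a j) (a.2.1 i : V) := by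
      intro a i j
      rw [← hpv a j, ← a.1.2.1, hpv a i, polar_comm]
    have hdiag : ∀ (a : (Σ N : TT Q k, {s : Fin k → LinearMap.range N.1 // LinearIndependent F s})) i,
        polar Q (pv a i) (a.2.1 i : V) = Q (a.2.1 i : V) := by
      intro a i
      rw [← hpv a i]
      exact a.1.2.2.2.1 _
    have hlt : ∀ i j : Fin k, j < i → polar Q (pv a i) (a.2.1 j : V) = polar Q (pv b i) (b.2.1 j : V) := by
      intro i j hij
      exact congrFun h2 ⟨i, ⟨j, hij⟩⟩
    have hG : ∀ i j, polar Q (pv a i) (a.2.1 j : V) = polar Q (pv b i) (b.2.1 j : V) := by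
      intro i j
      rcases lt_trichotomy i j with h | h | h
      · rw [hsym a, hsym b]
        exact hlt j i h
      · subst h
        rw [hdiag, hdiag, hu]
      · exact hlt i j h
    have hN : a.1.1 = b.1.1 := by
      refine eq_of_gram hQ a.1.2.1 b.1.2.1 hr (hspan a) (hpv a) (v' := pv b) (fun i => ?_) (fun i j => ?_)
      · rw [hpv b, hu]
      · rw [hG, hu]
    obtain ⟨N, s⟩ := a
    obtain ⟨N', s'⟩ := b
    have hN2 : N = N' := Subtype.ext hN
    subst hN2
    congr 1
    apply Subtype.ext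
    funext i
    apply Subtype.ext
    exact hu i

/-- **EV1**, with the constant four -/
theorem class_bound4 [Finite F] [CharP F 2] [Finite V]
    (hQ : Nondeg Q) {m k : ℕ} (hm : finrank F V = m) {t : ↥(E Q)}
    (ht : ∀ v, (t : V ≃ₗ[F] V) ((t : V ≃ₗ[F] V) v) = v)
    (hk : finrank F (LinearMap.range ((t : V ≃ₗ[F] V).toLinearMap - LinearMap.id)) = k) :
    (centralizer ({t} : Set ↥(E Q))).index ≤ 4 * Nat.card F ^ (k * (m - k)) := by
  have hfd : FiniteDimensional F V := Module.Finite.of_finite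
  have hfV : Finite (V →ₗ[F] V) := Finite.of_injective (fun f : V →ₗ[F] V => (f : V → V)) DFunLike.coe_injective
  have hft : Finite (TT Q k) := Subtype.finite
  have h2 : (2 : F) = 0 := by exact_mod_cast CharP.cast_eq_zero F 2
  have hss : ∀ g : ↥(E Q), ∀ v, ap (g * t * g⁻¹) (ap (g * t * g⁻¹) v) = v := by
    intro g v
    simp only [ap_mul]
    rw [ap_inv_ap]
    have : ap t (ap t (ap g⁻¹ v)) = ap g⁻¹ v := ht _
    rw [this, ap_ap_inv]
  have hpol : ∀ (g : ↥(E Q)) x y, polar Q (ap g x) (ap g y) = polar Q x y := fun g x y => polar_map (E_le_O g.2) x y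
  have hself : ∀ v, polar Q v v = 0 := fun v => by
    rw [polar_self, two_smul, ← two_mul, h2, zero_mul]
  have hneg : ∀ a : F, -a = a := fun a => by linear_combination (-a) * h2
  have hnegV : ∀ v : V, -v = v := fun v => by
    have : (2 : F) • v = 0 := by rw [h2, zero_smul]
    rw [two_smul] at this
    exact (eq_neg_of_add_eq_zero_left this).symm
  have hkm : k ≤ finrank F V := by
    rw [← hk]
    exact Submodule.finrank_le _
  have h1 : (centralizer ({t} : Set ↥(E Q))).index ≤ Nat.card (TT Q k) := by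
    refine index_le_of_inj t (fun g => ⟨((g * t * g⁻¹ : ↥(E Q)) : V ≃ₗ[F] V).toLinearMap - LinearMap.id, ?_, ?_, ?_, ?_⟩) ?_
    · intro v w
      show polar Q (ap (g * t * g⁻¹) v - v) w = polar Q v (ap (g * t * g⁻¹) w - w)
      rw [polar_sub_left, polar_sub_right]
      congr 1
      have := hpol (g * t * g⁻¹) (ap (g * t * g⁻¹) v) w
      rw [hss] at this
      exact this.symm
    · intro v
      show ap (g * t * g⁻¹) (ap (g * t * g⁻¹) v - v) - (ap (g * t * g⁻¹) v - v) = 0
      rw [ap_sub, hss]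
      have h3 : v - ap (g * t * g⁻¹) v = -(ap (g * t * g⁻¹) v - v) := by abel
      rw [h3, hnegV, sub_self]
    · intro v
      show polar Q v (ap (g * t * g⁻¹) v - v) = Q (ap (g * t * g⁻¹) v - v)
      have h3 : Q (ap (g * t * g⁻¹) v - v) = Q (ap (g * t * g⁻¹) v) + Q v - polar Q (ap (g * t * g⁻¹) v) v := by
        rw [sub_eq_add_neg, QuadraticMap.map_add (⇑Q), QuadraticMap.map_neg, polar_neg_right, sub_eq_add_neg]
      rw [h3, Q_ap, polar_sub_right, hself, polar_comm Q (ap (g * t * g⁻¹) v) v]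
      linear_combination (polar Q v (ap (g * t * g⁻¹) v) - Q v) * h2
    · have h3 : LinearMap.range (((g * t * g⁻¹ : ↥(E Q)) : V ≃ₗ[F] V).toLinearMap - LinearMap.id) =
          (LinearMap.range ((t : V ≃ₗ[F] V).toLinearMap - LinearMap.id)).map ((g : V ≃ₗ[F] V) : V →ₗ[F] V) := by
        ext x
        rw [Submodule.mem_map]
        constructor
        · rintro ⟨y, rfl⟩
          refine ⟨ap t (ap g⁻¹ y) - ap g⁻¹ y, ⟨ap g⁻¹ y, rfl⟩, ?_⟩
          show ap g (ap t (ap g⁻¹ y) - ap g⁻¹ y) = ap (g * t * g⁻¹) y - y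
          rw [ap_sub, ap_ap_inv, ap_mul, ap_mul]
        · rintro ⟨_, ⟨y, rfl⟩, rfl⟩
          refine ⟨ap g y, ?_⟩
          show ap (g * t * g⁻¹) (ap g y) - ap g y = ap g (ap t y - y)
          rw [ap_sub, ap_mul, ap_mul, ap_inv_ap]
      rw [h3, LinearEquiv.finrank_map_eq, hk]
    · intro g h hgh
      have h3 := congrArg Subtype.val hgh
      apply Subtype.ext
      apply LinearEquiv.toLinearMap_injective
      exact sub_left_injective h3
  have h3 := card_TT hQ k hkm
  have hq2 : 2 ≤ Nat.card F := by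
    have := Fintype.ofFinite F
    rw [Nat.card_eq_fintype_card]
    exact Fintype.one_lt_card
  have h4 := four_prod' (Nat.card F) hq2 k
  set q := Nat.card F with hq
  set P := ∏ i : Fin k, (q ^ k - q ^ (i : ℕ)) with hP
  set I := (centralizer ({t} : Set ↥(E Q))).index with hI
  have h5 : q ^ (k * k) * I ≤ q ^ (k * k) * (4 * q ^ (k * (m - k))) := by
    calc q ^ (k * k) * I ≤ 4 * P * Nat.card (TT Q k) := Nat.mul_le_mul h4 h1
      _ = 4 * (Nat.card (TT Q k) * P) := by ring
      _ ≤ 4 * q ^ (k * finrank F V) := Nat.mul_le_mul_left _ h3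
      _ = q ^ (k * k) * (4 * q ^ (k * (m - k))) := by
        rw [← hm]
        obtain ⟨d, hd⟩ := Nat.exists_eq_add_of_le hkm
        rw [hd, Nat.add_sub_cancel_left, mul_add, pow_add]
        ring
  exact Nat.le_of_mul_le_mul_left h5 (Nat.pow_pos (by omega))

/-- **EV1** -/
theorem class_bound {F V : Type*} [Field F] [Fintype F] [CharP F 2] [AddCommGroup V] [Module F V] [Fintype V]
    {Q : QuadraticForm F V} (hQ : Nondeg Q) {m k : ℕ} (hm : finrank F V = m) {t : ↥(E Q)}
    (ht : ∀ v, (t : V ≃ₗ[F] V) ((t : V ≃ₗ[F] V) v) = v)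
    (hk : finrank F (LinearMap.range ((t : V ≃ₗ[F] V).toLinearMap - LinearMap.id)) = k) :
    (centralizer ({t} : Set ↥(E Q))).index ≤ 8 * Fintype.card F ^ (k * (m - k)) := by
  have h := class_bound4 hQ hm ht hk
  rw [Nat.card_eq_fintype_card] at h
  exact h.trans (Nat.mul_le_mul_right _ (by norm_num))

end Cfsg.Agent.H237.IFE
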